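import Mathlib
import Cfsg.Prelude.Def_Blocks
import Cfsg.Agent.H79.CentralDefect
import Cfsg.Agent.H79.PCBlock
import Cfsg.Agent.H20.SecondMain3
import Cfsg.Agent.H20.DefectOrder
import Cfsg.Agent.H80.Block
import Cfsg.Agent.H80.GroupBasic
import Cfsg.Agent.H4.BrauerBasic
import Cfsg.Agent.H82.Irr
import Cfsg.Agent.S0912

/-!
# lead: a 2-block whose defect group is generated by a central involution

If `z` is a central involution of `H`, `θ ∈ Irr(H)` has `z` in its kernel and `⟨z⟩` is a defect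
group of the block of `θ`, that block is `{θ, θ'}` with `θ' = θ` on odd-order elements,
`θ'(z h) = -θ'(h)`, and both vanish off `⟨z⟩ ×` (odd-order elements).
-/

set_option autoImplicit false
set_option linter.unusedSectionVars false
set_option linter.style.haveILetI false

namespace Cfsg.Agent.Lib.Defect2

open Cfsg Cfsg.Agent.H4

universe u

theorem two_elts {D : Type*} [Group D] (hD : Nat.card D = 2) (z : D) (hz : z ≠ 1) (d : D) :
    d = 1 ∨ d = z := by
  obtain ⟨y, hy, huniq⟩ := (Nat.card_eq_two_iff' (1 : D)).mp hD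
  by_cases hd : d = 1
  · exact Or.inl hd
  · right; rw [huniq d hd, huniq z hz]

theorem exists_sign {D : Type*} [Group D] (hD : Nat.card D = 2) (z : D) (hz : z ≠ 1) :
    ∃ lam : D →* ℂˣ, lam z = -1 := by
  classical
  have h2 := two_elts hD z hz
  have hzz : z * z = 1 := by
    rcases h2 (z * z) with h | h
    · exact h
    · exfalso; apply hz; simpa using h
  have hmul : ∀ a b : D, (if a * b = 1 then (1 : ℂˣ) else -1)
      = (if a = 1 then 1 else -1) * (if b = 1 then 1 else -1) := by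
    intro a b
    rcases h2 a with ha | ha <;> rcases h2 b with hb | hb <;> simp [ha, hb, hz, hzz]
  refine ⟨MonoidHom.mk' (fun d => if d = 1 then 1 else -1) hmul, ?_⟩
  show (if z = 1 then (1 : ℂˣ) else -1) = -1
  rw [if_neg hz]

theorem central_two {H : Type u} [Group H] [Finite H] {M : Ideal AlgInt} (hM : IsPModular 2 M)
    (z : H) (hz : orderOf z = 2) (hzc : z ∈ Subgroup.center H) (θ : IrrCharacter H)
    (hθz : (θ : H → ℂ) z = (θ : H → ℂ) 1)
    (hdef : IsDefectGroup 2 M (blockOf M (θ : H → ℂ)) (Subgroup.zpowers z)) :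
    ∃ θ' : IrrCharacter H, θ' ∈ blockOf M (θ : H → ℂ) ∧
      (∀ ψ ∈ blockOf M (θ : H → ℂ), ψ = θ ∨ ψ = θ') ∧
      (∀ h : H, ¬ 2 ∣ orderOf h → (θ' : H → ℂ) h = (θ : H → ℂ) h) ∧
      (∀ h : H, (θ' : H → ℂ) (z * h) = - (θ' : H → ℂ) h) ∧
      (∀ h : H, (θ : H → ℂ) (z * h) = (θ : H → ℂ) h) ∧
      (∀ h : H, ((θ : H → ℂ) h ≠ 0 ∨ (θ' : H → ℂ) h ≠ 0) →
        ∃ y : H, ¬ 2 ∣ orderOf y ∧ (h = y ∨ h = z * y)) := by
  classical
  letI : Fintype H := Fintype.ofFinite H
  have hp : Nat.Prime 2 := Nat.prime_two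
  haveI : Fact (Nat.Prime 2) := ⟨hp⟩
  have hMp := Cfsg.Agent.H20.isPrime_of_isPModular hM
  obtain ⟨D, hDdef⟩ : ∃ D : Subgroup H, D = Subgroup.zpowers z := ⟨_, rfl⟩
  rw [← hDdef] at hdef
  have hDZ : D ≤ Subgroup.center H := by rw [hDdef]; exact Subgroup.zpowers_le.mpr hzc
  have hDcard : Nat.card D = 2 := by rw [hDdef, Nat.card_zpowers, hz]
  have hzD : z ∈ D := by rw [hDdef]; exact Subgroup.mem_zpowers z
  have hz1 : z ≠ 1 := by intro h; rw [h, orderOf_one] at hz; omega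
  have hzD1 : (⟨z, hzD⟩ : D) ≠ 1 := fun h => hz1 (congrArg Subtype.val h)
  have hD2 : ∀ d ∈ D, d = 1 ∨ d = z := by
    intro d hd
    rcases two_elts hDcard ⟨z, hzD⟩ hzD1 ⟨d, hd⟩ with h | h
    · left; exact congrArg Subtype.val h
    · right; exact congrArg Subtype.val h
  have hDp : IsPGroup 2 D := IsPGroup.of_card (n := 1) (by rw [hDcard]; rfl)
  haveI hDn : D.Normal := by
    refine ⟨fun n hn g => ?_⟩
    have h1 := Subgroup.mem_center_iff.mp (hDZ hn) g
    rw [h1, mul_inv_cancel_right]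
    exact hn
  have hzz : z * z = 1 := by rw [← pow_two, ← hz, pow_orderOf_eq_one]
  have hθB : θ ∈ blockOf M (θ : H → ℂ) := Cfsg.Agent.H80.mem_blockOf_self hMp θ
  have hge := (Cfsg.Agent.H79.exists_height_zero_of_defectGroup hM θ D hdef).2 θ hθB
  have hker : ∀ x ∈ D, (θ : H → ℂ) x = (θ : H → ℂ) 1 := by
    intro x hx
    rcases hD2 x hx with rfl | rfl
    · rfl
    · exact hθz
  obtain ⟨θb, hθb⟩ := Cfsg.Agent.H82.exists_deflate D θ hker
  have hge' : D.index.factorization 2 ≤ (charDegree (θb : H ⧸ D → ℂ)).factorization 2 := by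
    rw [← Cfsg.Agent.H82.charDegree_inflate D θb, hθb]
    exact hge
  obtain ⟨hdegb, -⟩ := Cfsg.Agent.H79.degree_of_ker hp D θb hge'
  have hdeg : (charDegree (θ : H → ℂ)).factorization 2 = D.index.factorization 2 := by
    rw [← hθb, Cfsg.Agent.H82.charDegree_inflate]
    exact hdegb
  obtain ⟨lam, hlam⟩ := exists_sign hDcard ⟨z, hzD⟩ hzD1
  obtain ⟨μ, hμ⟩ : ∃ μ : IrrCharacter D, ∀ d : D, (μ : D → ℂ) d = ((lam d : ℂˣ) : ℂ) :=
    ⟨⟨fun d => ((lam d : ℂˣ) : ℂ), isIrrCharacter_of_hom lam⟩, fun d => rfl⟩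
  letI : Fintype D := Fintype.ofFinite D
  obtain ⟨θ', hθ'B, hover, huniq, -, -, hreg⟩ :=
    Cfsg.Agent.H79.exists_unique_over hM D hDp hDZ θ hdeg μ
  have hθ'z : ∀ h : H, (θ' : H → ℂ) (z * h) = - (θ' : H → ℂ) h := by
    intro h
    have h1 := hover ⟨z, hzD⟩ h
    rw [hμ, hlam] at h1
    simpa using h1
  have hθzmul : ∀ h : H, (θ : H → ℂ) (z * h) = (θ : H → ℂ) h := by
    intro h
    rw [Cfsg.Agent.H20.irr_central_mul θ hzc h, hθz, div_self (irr_one_ne_zero θ), one_mul]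
  have hG : D ⊔ Subgroup.centralizer (D : Set H) = ⊤ := by
    rw [Subgroup.centralizer_eq_top_iff_subset.mpr hDZ, sup_top_eq]
  refine ⟨θ', hθ'B, ?_, hreg, hθ'z, hθzmul, ?_⟩
  · intro ψ hψ
    have hψ1 : (ψ : H → ℂ) 1 ≠ 0 := irr_one_ne_zero ψ
    have hmul := fun h => Cfsg.Agent.H20.irr_central_mul ψ hzc h
    obtain ⟨ω, hωdef⟩ : ∃ ω : ℂ, ω = (ψ : H → ℂ) z / (ψ : H → ℂ) 1 := ⟨_, rfl⟩
    have hzω : (ψ : H → ℂ) z = ω * (ψ : H → ℂ) 1 := by
      rw [hωdef, div_mul_cancel₀ _ hψ1]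
    have hω : ω * ω = 1 := by
      have h1 := hmul z
      rw [hzz, ← hωdef, hzω, ← mul_assoc] at h1
      have h2 : (ω * ω - 1) * (ψ : H → ℂ) 1 = 0 := by rw [sub_mul, one_mul, ← h1, sub_self]
      rcases mul_eq_zero.mp h2 with h3 | h3
      · exact sub_eq_zero.mp h3
      · exact absurd h3 hψ1
    rcases mul_self_eq_one_iff.mp hω with h1 | h1
    · left
      have hker' : ∀ x ∈ D, (ψ : H → ℂ) x = (ψ : H → ℂ) 1 := by
        intro x hx
        rcases hD2 x hx with rfl | rfl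
        · rfl
        · rw [hzω, h1, one_mul]
      exact Cfsg.Agent.H79.canonical_unique hM D hDp hG θ ψ hψ hker hker' hge
    · right
      apply huniq ψ hψ
      intro d h
      rcases two_elts hDcard ⟨z, hzD⟩ hzD1 d with rfl | rfl
      · rw [hμ]; simp
      · rw [hμ, hlam]
        show (ψ : H → ℂ) (z * h) = _
        rw [hmul h, ← hωdef, h1]
        simp
  · intro h hne
    obtain ⟨a, b, c, hab, hac, hb⟩ := Cfsg.Agent.H20.exists_pPart_decomp hp h
    by_cases hu : h ^ a ∈ D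
    · rcases hD2 _ hu with h1 | h1
      · refine ⟨h ^ b, hb, Or.inl ?_⟩
        rw [h1, one_mul] at hab
        exact hab.symm
      · refine ⟨h ^ b, hb, Or.inr ?_⟩
        rw [← h1]; exact hab.symm
    · exfalso
      have hord : ∃ k : ℕ, orderOf (h ^ a) = 2 ^ k := by
        obtain ⟨j, -, hj⟩ := (Nat.dvd_prime_pow hp).mp (orderOf_dvd_of_pow_eq_one hac)
        exact ⟨j, hj⟩
      have hpp : IsPPart 2 h (h ^ a) := ⟨h ^ b, hab, (Commute.refl h).pow_pow a b, hord, hb⟩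
      have hall : ∀ χ : IrrCharacter H, χ ∈ blockOf M (θ : H → ℂ) → (χ : H → ℂ) h = 0 := by
        intro χ hχ
        apply Cfsg.Agent.H20.irr_eq_zero_of_pPart hM χ h (h ^ a) hpp
        intro D' hD' huD'
        rw [Cfsg.Agent.H80.blockOf_eq_of_mem hMp hχ] at hD'
        have h1 : pCore 2 H ≤ D' := Cfsg.Agent.S0912.result 2 M hM _ ⟨θ, rfl⟩ D' hD'
        have h2 : D ≤ pCore 2 H := Cfsg.Agent.H80.le_pCore 2 D hDn hDp
        have h3 : Nat.card D' = Nat.card D := by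
          rw [Cfsg.Agent.H20.card_defectGroup hM θ D' hD',
            Cfsg.Agent.H20.card_defectGroup hM θ D hdef]
        have h4 : D = D' := Subgroup.eq_of_le_of_card_ge (h2.trans h1) h3.le
        exact hu (h4 ▸ huD')
      rcases hne with h1 | h1
      · exact h1 (hall θ hθB)
      · exact h1 (hall θ' hθ'B)

end Cfsg.Agent.Lib.Defect2
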