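import Mathlib
import Cfsg.Prelude.Def_Blocks
import Cfsg.Agent.H4.Induction
import Cfsg.Agent.H4.Exceptional
import Cfsg.Agent.H20.SecondMain2

/-!
# lead: induction from `C_G(x)` of class functions supported on the `p`-section of `x`

For a `p`-element `x` and a class function `η` of `C = C_G(x)` supported on `x · C_{p'}`:
`η^G (x y) = η (x y)`, `‖η^G‖ = ‖η‖`, and `η^G` vanishes on `p`-regular elements.
-/

set_option autoImplicit false
set_option linter.unusedSectionVars false
set_option linter.style.haveILetI false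

namespace Cfsg.Agent.Lib.Defect2

open Cfsg Cfsg.Agent.H4

open scoped ComplexConjugate

universe u

variable {G : Type u} [Group G]

/-- `x` as an element of its centralizer. -/
def xC (x : G) : Subgroup.centralizer ({x} : Set G) :=
  ⟨x, Subgroup.mem_centralizer_singleton_iff.mpr rfl⟩

theorem coe_xC (x : G) : ((xC x : Subgroup.centralizer ({x} : Set G)) : G) = x := rfl

/-- `η` is supported on the `p`-section of `x` inside `C_G(x)`. -/
def SecSupp (p : ℕ) (x : G) (η : Subgroup.centralizer ({x} : Set G) → ℂ) : Prop :=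
  ∀ c : Subgroup.centralizer ({x} : Set G), η c ≠ 0 →
    ∃ y : Subgroup.centralizer ({x} : Set G), ¬ p ∣ orderOf y ∧ c = xC x * y

theorem mem_centralizer_of_sec {p : ℕ} (hp : p.Prime) {x : G} {k : ℕ} (hx : orderOf x = p ^ k)
    (y y' : Subgroup.centralizer ({x} : Set G)) (hy : ¬ p ∣ orderOf y) (hy' : ¬ p ∣ orderOf y')
    (t : G) (h : t⁻¹ * (x * (y : G)) * t = x * (y' : G)) :
    t ∈ Subgroup.centralizer ({x} : Set G) := by
  have hcomm' : Commute x (y' : G) :=
    (Subgroup.mem_centralizer_singleton_iff.mp y'.2).symm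
  have hcomm : Commute x (y : G) :=
    (Subgroup.mem_centralizer_singleton_iff.mp y.2).symm
  have hy'G : ¬ p ∣ orderOf (y' : G) := by rwa [Subgroup.orderOf_coe]
  have hyG : ¬ p ∣ orderOf (y : G) := by rwa [Subgroup.orderOf_coe]
  have hpp : IsPPart p (x * (y' : G)) (t⁻¹ * x * t) := by
    refine ⟨t⁻¹ * (y : G) * t, ?_, ?_, ⟨k, ?_⟩, ?_⟩
    · rw [← h]; group
    · have h1 : t⁻¹ * x * t * (t⁻¹ * (y : G) * t) = t⁻¹ * (x * (y : G)) * t := by group
      have h2 : t⁻¹ * (y : G) * t * (t⁻¹ * x * t) = t⁻¹ * ((y : G) * x) * t := by group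
      show t⁻¹ * x * t * (t⁻¹ * (y : G) * t) = t⁻¹ * (y : G) * t * (t⁻¹ * x * t)
      rw [h1, h2, hcomm.eq]
    · have := (MulAut.conj t⁻¹).orderOf_eq x
      simpa [MulAut.conj_apply] using this.trans hx
    · have := (MulAut.conj t⁻¹).orderOf_eq (y : G)
      have h3 : orderOf (t⁻¹ * (y : G) * t) = orderOf (y : G) := by
        simpa [MulAut.conj_apply] using this
      rw [h3]; exact hyG
  have heq := Cfsg.Agent.H20.eq_of_isPPart hp hcomm' hx hy'G hpp
  rw [Subgroup.mem_centralizer_singleton_iff]
  calc t * x = t * (t⁻¹ * x * t) := by rw [heq]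
    _ = x * t := by group

theorem indFun_sec [Fintype G] {p : ℕ} (hp : p.Prime) {x : G} {k : ℕ} (hx : orderOf x = p ^ k)
    [Fintype (Subgroup.centralizer ({x} : Set G))]
    (η : Subgroup.centralizer ({x} : Set G) → ℂ)
    (hη : IsClassFunction (Subgroup.centralizer ({x} : Set G)) η) (hs : SecSupp p x η)
    (y : Subgroup.centralizer ({x} : Set G)) (hy : ¬ p ∣ orderOf y) :
    indFun (Subgroup.centralizer ({x} : Set G)) η (x * (y : G)) = η (xC x * y) := by
  classical
  rw [indFun_apply]
  have key : ∀ t : G,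
      extendByZero (Subgroup.centralizer ({x} : Set G)) η (t⁻¹ * (x * (y : G)) * t)
      = if t ∈ Subgroup.centralizer ({x} : Set G) then η (xC x * y) else 0 := by
    intro t
    split_ifs with ht
    · have hmem : t⁻¹ * (x * (y : G)) * t ∈ Subgroup.centralizer ({x} : Set G) :=
        Subgroup.mul_mem _ (Subgroup.mul_mem _ (Subgroup.inv_mem _ ht) (xC x * y).2) ht
      rw [extendByZero_of_mem _ _ hmem]
      have h1 := hη (xC x * y) (⟨t, ht⟩⁻¹)
      rw [← h1]
      congr 1
      apply Subtype.ext
      simp [xC]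
    · by_contra hne
      have hmem : t⁻¹ * (x * (y : G)) * t ∈ Subgroup.centralizer ({x} : Set G) := by
        by_contra hn
        exact hne (extendByZero_of_not_mem _ _ hn)
      rw [extendByZero_of_mem _ _ hmem] at hne
      obtain ⟨y', hy', hc⟩ := hs _ hne
      have hc' : t⁻¹ * (x * (y : G)) * t = x * (y' : G) := by
        have := congrArg Subtype.val hc
        simpa [xC] using this
      exact ht (mem_centralizer_of_sec hp hx y y' hy hy' t hc')
  simp only [key]
  have hN : (Nat.card (Subgroup.centralizer ({x} : Set G)) : ℂ) ≠ 0 := by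
    exact_mod_cast (Nat.card_pos (α := Subgroup.centralizer ({x} : Set G))).ne'
  rw [Finset.sum_ite, Finset.sum_const_zero, add_zero, Finset.sum_const, nsmul_eq_mul,
    ← Fintype.card_subtype, ← Nat.card_eq_fintype_card]
  change (Nat.card (Subgroup.centralizer ({x} : Set G)) : ℂ)⁻¹ *
    ((Nat.card (Subgroup.centralizer ({x} : Set G)) : ℂ) * η (xC x * y)) = η (xC x * y)
  rw [← mul_assoc, inv_mul_cancel₀ hN, one_mul]

theorem classInner_indFun_sec [Fintype G] {p : ℕ} (hp : p.Prime) {x : G} {k : ℕ}
    (hx : orderOf x = p ^ k) [Fintype (Subgroup.centralizer ({x} : Set G))]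
    (η : Subgroup.centralizer ({x} : Set G) → ℂ)
    (hη : IsClassFunction (Subgroup.centralizer ({x} : Set G)) η) (hs : SecSupp p x η) :
    classInner (indFun (Subgroup.centralizer ({x} : Set G)) η)
      (indFun (Subgroup.centralizer ({x} : Set G)) η) = classInner η η := by
  rw [frobenius_reciprocity _ _ _ (indFun_isClassFunction _ _)]
  unfold classInner
  congr 1
  refine Finset.sum_congr rfl fun c _ => ?_
  by_cases hc : η c = 0
  · rw [hc, zero_mul, zero_mul]
  · obtain ⟨y, hy, rfl⟩ := hs c hc
    have h1 : ((xC x * y : Subgroup.centralizer ({x} : Set G)) : G) = x * (y : G) := rfl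
    beta_reduce
    rw [h1, indFun_sec hp hx η hη hs y hy]

theorem indFun_sec_regular [Fintype G] {p : ℕ} (hp : p.Prime) {x : G} {k : ℕ} (hk : k ≠ 0)
    (hx : orderOf x = p ^ k) (η : Subgroup.centralizer ({x} : Set G) → ℂ) (hs : SecSupp p x η)
    (g : G) (hg : ¬ p ∣ orderOf g) :
    indFun (Subgroup.centralizer ({x} : Set G)) η g = 0 := by
  classical
  rw [indFun_apply]
  have key : ∀ t : G, extendByZero (Subgroup.centralizer ({x} : Set G)) η (t⁻¹ * g * t) = 0 := by
    intro t
    by_contra hne
    have hmem : t⁻¹ * g * t ∈ Subgroup.centralizer ({x} : Set G) := by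
      by_contra hn
      exact hne (extendByZero_of_not_mem _ _ hn)
    rw [extendByZero_of_mem _ _ hmem] at hne
    obtain ⟨y', hy', hc⟩ := hs _ hne
    have hc' : t⁻¹ * g * t = x * (y' : G) := by
      have := congrArg Subtype.val hc
      simpa [xC] using this
    have hcomm' : Commute x (y' : G) :=
      (Subgroup.mem_centralizer_singleton_iff.mp y'.2).symm
    have hy'G : ¬ p ∣ orderOf (y' : G) := by rwa [Subgroup.orderOf_coe]
    have hord : orderOf (t⁻¹ * g * t) = orderOf g := by
      have := (MulAut.conj t⁻¹).orderOf_eq g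
      simpa [MulAut.conj_apply] using this
    have hpp : IsPPart p (x * (y' : G)) 1 := by
      refine ⟨x * (y' : G), one_mul _, Commute.one_left _, ⟨0, by simp⟩, ?_⟩
      rw [← hc', hord]; exact hg
    have h1 := Cfsg.Agent.H20.eq_of_isPPart hp hcomm' hx hy'G hpp
    rw [← h1, orderOf_one] at hx
    have : p ^ k ≠ 1 := by
      intro h
      rcases (Nat.pow_eq_one).mp h with h | h
      · exact hp.one_lt.ne' h
      · exact hk h
    exact this hx.symm
  simp only [key, Finset.sum_const_zero, mul_zero]

end Cfsg.Agent.Lib.Defect2
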