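import Mathlib
import Cfsg.Prelude.Def_Blocks
import Cfsg.Agent.Lib.Defect2.Section
import Cfsg.Agent.Lib.Defect2.Central
import Cfsg.Agent.H4.Chars
import Cfsg.Agent.H4.Clifford
import Cfsg.Agent.H20.FirstMain
import Cfsg.Agent.H20.SecondMain2
import Cfsg.Agent.H20.SecondMain3
import Cfsg.Agent.H80.MaxConj2
import Cfsg.Agent.H80.Brauer
import Cfsg.Agent.H81.DefZero
import Cfsg.Agent.H81.RankDef
import Cfsg.Agent.S0906
import Cfsg.Agent.S0917
import Cfsg.Agent.S0928

/-!
# lead: 2-blocks with a defect group of order 2 (Brauer)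

`defect_two`: if the 2-block `B` of `G` has defect group `⟨x⟩` of order 2, `b` is a block of
`C = C_G(x)` inducing `B` and `θ ∈ b` has `x` in its kernel, then `B = {χ₁, χ₂}` with
`χ₁ = χ₂` on odd-order elements and `χ₁(xy) = θ(y)`, `χ₂(xy) = -θ(y)` for `y ∈ C` of odd order.
-/

set_option autoImplicit false
set_option linter.unusedSectionVars false
set_option linter.style.haveILetI false

namespace Cfsg.Agent.Lib.Defect2

open Cfsg Cfsg.Agent.H4

open scoped ComplexConjugate

universe u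

variable {G : Type u} [Group G]

theorem zpowers_two_elts {x : G} (hx : orderOf x = 2) {n : G} (hn : n ∈ Subgroup.zpowers x) :
    n = 1 ∨ n = x := by
  have hcard : Nat.card (Subgroup.zpowers x) = 2 := by rw [Nat.card_zpowers, hx]
  have hx1 : x ≠ 1 := by intro h; rw [h, orderOf_one] at hx; omega
  have hxD : (⟨x, Subgroup.mem_zpowers x⟩ : Subgroup.zpowers x) ≠ 1 :=
    fun h => hx1 (congrArg Subtype.val h)
  rcases two_elts hcard ⟨x, Subgroup.mem_zpowers x⟩ hxD ⟨n, hn⟩ with h | h
  · left; exact congrArg Subtype.val h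
  · right; exact congrArg Subtype.val h

theorem centralizer_eq_normalizer {x : G} (hx : orderOf x = 2) :
    Subgroup.centralizer ({x} : Set G)
      = Subgroup.normalizer ((Subgroup.zpowers x : Subgroup G) : Set G) := by
  have hx1 : x ≠ 1 := by intro h; rw [h, orderOf_one] at hx; omega
  ext g
  rw [Subgroup.mem_centralizer_singleton_iff, Subgroup.mem_normalizer_iff]
  constructor
  · intro hg
    have hc : ∀ n ∈ Subgroup.zpowers x, g * n * g⁻¹ = n := by
      intro n hn
      rcases zpowers_two_elts hx hn with h | h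
      · rw [h]; simp
      · rw [h, hg, mul_inv_cancel_right]
    intro h
    constructor
    · intro hh
      have hh' : h ∈ Subgroup.zpowers x := hh
      show g * h * g⁻¹ ∈ Subgroup.zpowers x
      rw [hc h hh']; exact hh'
    · intro hh
      have hh' : g * h * g⁻¹ ∈ Subgroup.zpowers x := hh
      have h1 := hc _ hh'
      have h2 : g * h * g⁻¹ = h := by
        have := congrArg (fun t => g⁻¹ * t * g) h1
        simpa [mul_assoc] using this
      show h ∈ Subgroup.zpowers x
      rw [← h2]; exact hh'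
  · intro hg
    have h1 : g * x * g⁻¹ ∈ Subgroup.zpowers x := (hg x).mp (Subgroup.mem_zpowers x)
    rcases zpowers_two_elts hx h1 with h | h
    · exfalso; apply hx1
      have := congrArg (fun t => g⁻¹ * t * g) h
      simpa [mul_assoc] using this
    · calc g * x = g * x * g⁻¹ * g := by group
        _ = x * g := by rw [h]

theorem subgroupOf_zpowers (x : G) :
    (Subgroup.zpowers x).subgroupOf (Subgroup.centralizer ({x} : Set G))
      = Subgroup.zpowers (xC x) := by
  ext c
  rw [Subgroup.mem_subgroupOf, Subgroup.mem_zpowers_iff, Subgroup.mem_zpowers_iff]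
  constructor
  · rintro ⟨k, hk⟩
    exact ⟨k, Subtype.ext (by rw [Subgroup.coe_zpow]; exact hk)⟩
  · rintro ⟨k, hk⟩
    refine ⟨k, ?_⟩
    have := congrArg Subtype.val hk
    rwa [Subgroup.coe_zpow] at this

theorem unique_of_eq_normalizer [Fintype G] {p : ℕ} [Fact p.Prime] {M : Ideal AlgInt}
    (hM : IsPModular p M) (D : Subgroup G) (hD : IsPGroup p D) (K : Subgroup G)
    (hK : K = Subgroup.normalizer (D : Set G)) (χ₀ : IrrCharacter G) (ξ₁ ξ₂ : IrrCharacter K)
    (h1 : IsDefectGroup p M (blockOf M (ξ₁ : K → ℂ)) (D.subgroupOf K))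
    (hi1 : IsInducedBlock M K (blockOf M (ξ₁ : K → ℂ)) (blockOf M (χ₀ : G → ℂ)))
    (hi2 : IsInducedBlock M K (blockOf M (ξ₂ : K → ℂ)) (blockOf M (χ₀ : G → ℂ))) :
    blockOf M (ξ₂ : K → ℂ) = blockOf M (ξ₁ : K → ℂ) := by
  subst hK
  exact Cfsg.Agent.H20.first_main_unique hM D hD χ₀ ξ₁ ξ₂ h1 hi1 hi2

theorem xC_mem_center (x : G) : xC x ∈ Subgroup.center (Subgroup.centralizer ({x} : Set G)) := by
  rw [Subgroup.mem_center_iff]
  intro c
  apply Subtype.ext
  exact Subgroup.mem_centralizer_singleton_iff.mp c.2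

theorem orderOf_xC (x : G) : orderOf (xC x) = orderOf x := by
  rw [← Subgroup.orderOf_coe, coe_xC]

/-- The block `b` of `C_G(x)` inducing a block with defect group `⟨x⟩` of order 2 has defect
group `⟨x⟩`. -/
theorem defect_b [Finite G] {M : Ideal AlgInt} (hM : IsPModular 2 M) (x : G)
    (hx : orderOf x = 2) (B : Set (IrrCharacter G)) (hB : IsPBlock M B)
    (hBD : IsDefectGroup 2 M B (Subgroup.zpowers x))
    (b : Set (IrrCharacter (Subgroup.centralizer ({x} : Set G))))
    (hb : IsInducedBlock M (Subgroup.centralizer ({x} : Set G)) b B) :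
    IsDefectGroup 2 M b (Subgroup.zpowers (xC x)) := by
  classical
  letI : Fintype G := Fintype.ofFinite G
  haveI : Fact (Nat.Prime 2) := ⟨Nat.prime_two⟩
  have hMp := Cfsg.Agent.H20.isPrime_of_isPModular hM
  obtain ⟨g, hg⟩ := Cfsg.Agent.S0906.result 2 M hM b hb.1
  obtain ⟨P⟩ : Nonempty (Sylow 2 (Subgroup.centralizer
    ({g} : Set (Subgroup.centralizer ({x} : Set G))))) := inferInstance
  obtain ⟨D', hD'def⟩ : ∃ D' : Subgroup (Subgroup.centralizer ({x} : Set G)),
      D' = (P : Subgroup _).map (Subgroup.centralizer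
        ({g} : Set (Subgroup.centralizer ({x} : Set G)))).subtype := ⟨_, rfl⟩
  have hD' : IsDefectGroup 2 M b D' := ⟨g, hg, P, hD'def⟩
  obtain ⟨E, hE, hle⟩ := Cfsg.Agent.S0917.result 2 M hM _ b hb.1 B hB hb D' hD'
  obtain ⟨χ₀, rfl⟩ := hB
  obtain ⟨ξ₀, rfl⟩ := hb.1
  have hEcard : Nat.card E = 2 := by
    rw [Cfsg.Agent.H20.card_defectGroup hM χ₀ E hE,
      ← Cfsg.Agent.H20.card_defectGroup hM χ₀ _ hBD, Nat.card_zpowers, hx]
  have hD'card : Nat.card D' ≤ 2 := by
    have h1 : Nat.card (D'.map (Subgroup.centralizer ({x} : Set G)).subtype) = Nat.card D' :=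
      Subgroup.card_map_of_injective (Subgroup.subtype_injective _)
    rw [← h1, ← hEcard]; exact Subgroup.card_le_of_le hle
  have hxc := xC_mem_center x
  have hZle : Subgroup.zpowers (xC x) ≤ Subgroup.center (Subgroup.centralizer ({x} : Set G)) :=
    Subgroup.zpowers_le.mpr hxc
  have hZn : (Subgroup.zpowers (xC x)).Normal := by
    refine ⟨fun n hn g => ?_⟩
    have h1 := Subgroup.mem_center_iff.mp (hZle hn) g
    rw [h1, mul_inv_cancel_right]
    exact hn
  have hZcard : Nat.card (Subgroup.zpowers (xC x)) = 2 := by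
    rw [Nat.card_zpowers, orderOf_xC, hx]
  have hZp : IsPGroup 2 (Subgroup.zpowers (xC x)) :=
    IsPGroup.of_card (n := 1) (by rw [hZcard]; rfl)
  have h2 : Subgroup.zpowers (xC x) ≤ D' :=
    (Cfsg.Agent.H80.le_pCore 2 _ hZn hZp).trans
      (Cfsg.Agent.S0912.result 2 M hM _ ⟨ξ₀, rfl⟩ D' hD')
  have h3 := Subgroup.eq_of_le_of_card_ge h2 (by rw [hZcard]; exact hD'card)
  rw [h3]; exact hD'

section Main

variable (x : G)

theorem defect_two [Finite G] {M : Ideal AlgInt} (hM : IsPModular 2 M) (hx : orderOf x = 2)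
    (B : Set (IrrCharacter G)) (hB : IsPBlock M B)
    (hBD : IsDefectGroup 2 M B (Subgroup.zpowers x))
    (b : Set (IrrCharacter (Subgroup.centralizer ({x} : Set G)))) (hb : IsInducedBlock M (Subgroup.centralizer ({x} : Set G)) b B)
    (θ : IrrCharacter (Subgroup.centralizer ({x} : Set G))) (hθ : θ ∈ b)
    (hθx : (θ : (Subgroup.centralizer ({x} : Set G)) → ℂ) (xC x) = (θ : (Subgroup.centralizer ({x} : Set G)) → ℂ) 1) :
    ∃ χ₁ χ₂ : IrrCharacter G, χ₁ ≠ χ₂ ∧ B = {χ₁, χ₂} ∧
      (∀ g : G, ¬ 2 ∣ orderOf g → (χ₁ : G → ℂ) g = (χ₂ : G → ℂ) g) ∧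
      ∀ y : (Subgroup.centralizer ({x} : Set G)), ¬ 2 ∣ orderOf y →
        (χ₁ : G → ℂ) (x * (y : G)) = (θ : (Subgroup.centralizer ({x} : Set G)) → ℂ) y ∧
        (χ₂ : G → ℂ) (x * (y : G)) = - (θ : (Subgroup.centralizer ({x} : Set G)) → ℂ) y := by
  classical
  letI : Fintype G := Fintype.ofFinite G
  letI : Fintype (Subgroup.centralizer ({x} : Set G)) := Fintype.ofFinite _
  have hp : Nat.Prime 2 := Nat.prime_two
  haveI : Fact (Nat.Prime 2) := ⟨hp⟩
  have hMp := Cfsg.Agent.H20.isPrime_of_isPModular hM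
  have hx' : orderOf x = 2 ^ 1 := by rw [hx, pow_one]
  have hxx : x * x = 1 := by rw [← pow_two, ← hx, pow_orderOf_eq_one]
  have hx1 : x ≠ 1 := by intro h; rw [h, orderOf_one] at hx; omega
  have hbθ : b = blockOf M (θ : (Subgroup.centralizer ({x} : Set G)) → ℂ) := by
    obtain ⟨ξ₀, hξ₀⟩ := hb.1
    rw [hξ₀] at hθ ⊢
    exact (Cfsg.Agent.H80.blockOf_eq_of_mem hMp hθ).symm
  have hdefb : IsDefectGroup 2 M (blockOf M (θ : (Subgroup.centralizer ({x} : Set G)) → ℂ)) (Subgroup.zpowers (xC x)) := by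
    rw [← hbθ]; exact defect_b hM x hx B hB hBD b hb
  have hxcord : orderOf (xC x) = 2 := by rw [orderOf_xC, hx]
  obtain ⟨θ', hθ'B, hpair, hreg, hθ'z, hθz, hsupp⟩ :=
    central_two hM (xC x) hxcord (xC_mem_center x) θ hθx hdefb
  obtain ⟨χ₀, rfl⟩ := hB
  have hθ1 : (θ : (Subgroup.centralizer ({x} : Set G)) → ℂ) 1 ≠ 0 := irr_one_ne_zero θ
  have hne : θ ≠ θ' := by
    intro h
    have h1 := hθ'z 1
    rw [mul_one, ← h, hθx] at h1
    have : (θ : (Subgroup.centralizer ({x} : Set G)) → ℂ) 1 = 0 := by linear_combination (1 / 2 : ℂ) * h1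
    exact hθ1 this
  obtain ⟨η, hηdef⟩ : ∃ η : (Subgroup.centralizer ({x} : Set G)) → ℂ, η = (θ : (Subgroup.centralizer ({x} : Set G)) → ℂ) - (θ' : (Subgroup.centralizer ({x} : Set G)) → ℂ) := ⟨_, rfl⟩
  have hηcf : IsClassFunction (Subgroup.centralizer ({x} : Set G)) η := by
    rw [hηdef]; intro g h
    rw [Pi.sub_apply, Pi.sub_apply, irr_isClassFunction θ g h, irr_isClassFunction θ' g h]
  have hηs : SecSupp 2 x η := by
    intro c hc
    have hc' : (θ : (Subgroup.centralizer ({x} : Set G)) → ℂ) c ≠ 0 ∨ (θ' : (Subgroup.centralizer ({x} : Set G)) → ℂ) c ≠ 0 := by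
      by_contra hcon
      push_neg at hcon
      apply hc
      rw [hηdef, Pi.sub_apply, hcon.1, hcon.2, sub_zero]
    obtain ⟨y, hy, hcy | hcy⟩ := hsupp c hc'
    · exfalso; apply hc
      rw [hηdef, Pi.sub_apply, hcy, hreg y hy, sub_self]
    · exact ⟨y, hy, hcy⟩
  have hηnorm : classInner η η = 2 := by
    rw [hηdef, classInner_sub_left, classInner_sub_right, classInner_sub_right,
      irr_inner_self θ, irr_inner_ne hne, irr_inner_ne (Ne.symm hne), irr_inner_self θ']
    norm_num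
  have hnormG : classInner (indFun (Subgroup.centralizer ({x} : Set G)) η) (indFun (Subgroup.centralizer ({x} : Set G)) η) = 2 := by
    rw [classInner_indFun_sec hp hx' η hηcf hηs]; exact hηnorm
  have hθ'1 : (θ' : (Subgroup.centralizer ({x} : Set G)) → ℂ) 1 = (θ : (Subgroup.centralizer ({x} : Set G)) → ℂ) 1 := hreg 1 (by rw [orderOf_one]; norm_num)
  have hind : indFun (Subgroup.centralizer ({x} : Set G)) η = indFun (Subgroup.centralizer ({x} : Set G)) (θ : (Subgroup.centralizer ({x} : Set G)) → ℂ) - indFun (Subgroup.centralizer ({x} : Set G)) (θ' : (Subgroup.centralizer ({x} : Set G)) → ℂ) := by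
    rw [hηdef]; exact indFun_sub _ _ _
  obtain ⟨χ₁, χ₂, hχne, hχeq⟩ := exists_irr_sub_irr_of_norm_two
    (isCharacter_indFun (Subgroup.centralizer ({x} : Set G)) _ (isCharacter_of_isIrrCharacter θ.2))
    (isCharacter_indFun (Subgroup.centralizer ({x} : Set G)) _ (isCharacter_of_isIrrCharacter θ'.2))
    (by rw [← hind]; exact hnormG)
    (by rw [indFun_one_eq, indFun_one_eq, hθ'1])
  rw [← hind] at hχeq
  have hϑcf : ∀ χ : IrrCharacter G,
      IsClassFunction (Subgroup.centralizer ({x} : Set G)) (fun c : (Subgroup.centralizer ({x} : Set G)) => (χ : G → ℂ) (x * (c : G))) := by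
    intro χ g h
    show (χ : G → ℂ) (x * ((h * g * h⁻¹ : (Subgroup.centralizer ({x} : Set G))) : G)) = (χ : G → ℂ) (x * (g : G))
    have hc : (h : G) * x = x * (h : G) := Subgroup.mem_centralizer_singleton_iff.mp h.2
    have h1 : x * ((h * g * h⁻¹ : (Subgroup.centralizer ({x} : Set G))) : G) = (h : G) * (x * (g : G)) * (h : G)⁻¹ := by
      simp only [Subgroup.coe_mul, Subgroup.coe_inv]
      rw [← mul_assoc (h : G) x, hc]
      group
    rw [h1]; exact irr_isClassFunction χ _ _
  have hd : ∀ χ : IrrCharacter G,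
      classInner (fun c : (Subgroup.centralizer ({x} : Set G)) => (χ : G → ℂ) (x * (c : G))) (θ : (Subgroup.centralizer ({x} : Set G)) → ℂ)
        + classInner (fun c : (Subgroup.centralizer ({x} : Set G)) => (χ : G → ℂ) (x * (c : G))) (θ' : (Subgroup.centralizer ({x} : Set G)) → ℂ)
      = (if χ₁ = χ then (1 : ℂ) else 0) - (if χ₂ = χ then (1 : ℂ) else 0) := by
    intro χ
    have hxc : ∀ c : (Subgroup.centralizer ({x} : Set G)), x * ((xC x * c : (Subgroup.centralizer ({x} : Set G))) : G) = (c : G) := by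
      intro c
      show x * (x * (c : G)) = c
      rw [← mul_assoc, hxx, one_mul]
    have e1 : classInner (fun c : (Subgroup.centralizer ({x} : Set G)) => (χ : G → ℂ) (x * (c : G))) (θ : (Subgroup.centralizer ({x} : Set G)) → ℂ)
        = classInner (fun c : (Subgroup.centralizer ({x} : Set G)) => (χ : G → ℂ) (c : G)) (θ : (Subgroup.centralizer ({x} : Set G)) → ℂ) := by
      unfold classInner
      congr 1
      rw [← Equiv.sum_comp (Equiv.mulLeft (xC x))]
      refine Finset.sum_congr rfl fun c _ => ?_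
      show (χ : G → ℂ) (x * ((xC x * c : (Subgroup.centralizer ({x} : Set G))) : G)) * conj ((θ : (Subgroup.centralizer ({x} : Set G)) → ℂ) (xC x * c)) = _
      rw [hθz c, hxc c]
    have e2 : classInner (fun c : (Subgroup.centralizer ({x} : Set G)) => (χ : G → ℂ) (x * (c : G))) (θ' : (Subgroup.centralizer ({x} : Set G)) → ℂ)
        = - classInner (fun c : (Subgroup.centralizer ({x} : Set G)) => (χ : G → ℂ) (c : G)) (θ' : (Subgroup.centralizer ({x} : Set G)) → ℂ) := by
      unfold classInner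
      rw [← mul_neg, ← Finset.sum_neg_distrib]
      congr 1
      rw [← Equiv.sum_comp (Equiv.mulLeft (xC x))]
      refine Finset.sum_congr rfl fun c _ => ?_
      show (χ : G → ℂ) (x * ((xC x * c : (Subgroup.centralizer ({x} : Set G))) : G)) * conj ((θ' : (Subgroup.centralizer ({x} : Set G)) → ℂ) (xC x * c)) = _
      rw [hθ'z c, hxc c, map_neg, mul_neg]
    have e3 : classInner (fun c : (Subgroup.centralizer ({x} : Set G)) => (χ : G → ℂ) (c : G)) η
        = (if χ₁ = χ then (1 : ℂ) else 0) - (if χ₂ = χ then (1 : ℂ) else 0) := by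
      rw [← classInner_conj_symm,
        ← frobenius_reciprocity (Subgroup.centralizer ({x} : Set G)) η (χ : G → ℂ) (irr_isClassFunction χ), hχeq,
        classInner_sub_left]
      have a1 : classInner (χ₁ : G → ℂ) (χ : G → ℂ) = if χ₁ = χ then (1 : ℂ) else 0 := by
        split_ifs with h
        · rw [h]; exact irr_inner_self χ
        · exact irr_inner_ne h
      have a2 : classInner (χ₂ : G → ℂ) (χ : G → ℂ) = if χ₂ = χ then (1 : ℂ) else 0 := by
        split_ifs with h
        · rw [h]; exact irr_inner_self χ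
        · exact irr_inner_ne h
      rw [a1, a2]
      split_ifs <;> simp
    rw [e1, e2, ← sub_eq_add_neg, ← classInner_sub_right, ← hηdef, e3]
  have huniqb : ∀ ξ₀ : IrrCharacter (Subgroup.centralizer ({x} : Set G)),
      IsInducedBlock M (Subgroup.centralizer ({x} : Set G)) (blockOf M (ξ₀ : (Subgroup.centralizer ({x} : Set G)) → ℂ)) (blockOf M (χ₀ : G → ℂ)) →
      blockOf M (ξ₀ : (Subgroup.centralizer ({x} : Set G)) → ℂ) = blockOf M (θ : (Subgroup.centralizer ({x} : Set G)) → ℂ) := by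
    intro ξ₀ hi
    have hDp : IsPGroup 2 (Subgroup.zpowers x) :=
      IsPGroup.of_card (n := 1) (by rw [Nat.card_zpowers, hx]; rfl)
    refine unique_of_eq_normalizer hM (Subgroup.zpowers x) hDp (Subgroup.centralizer ({x} : Set G)) (centralizer_eq_normalizer hx)
      χ₀ θ ξ₀ ?_ ?_ hi
    · rw [subgroupOf_zpowers]; exact hdefb
    · rw [← hbθ]; exact hb
  have hsetb : blockOf M (θ : (Subgroup.centralizer ({x} : Set G)) → ℂ) = {θ, θ'} := by
    ext ψ
    constructor
    · intro hψ
      rcases hpair ψ hψ with h | h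
      · rw [h]; exact Set.mem_insert _ _
      · rw [h]; exact Set.mem_insert_of_mem _ rfl
    · rintro (h | h)
      · rw [h]; exact Cfsg.Agent.H80.mem_blockOf_self hMp θ
      · rw [Set.mem_singleton_iff] at h; rw [h]; exact hθ'B
  have hstar : ∀ χ ∈ blockOf M (χ₀ : G → ℂ), ∀ y : (Subgroup.centralizer ({x} : Set G)), ¬ 2 ∣ orderOf y →
      (χ : G → ℂ) (x * (y : G))
        = ((if χ₁ = χ then (1 : ℂ) else 0) - (if χ₂ = χ then (1 : ℂ) else 0))
          * (θ : (Subgroup.centralizer ({x} : Set G)) → ℂ) y := by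
    intro χ hχ y hy
    have h1 := Cfsg.Agent.H20.classFunction_eq_sum_blockPart hMp (hϑcf χ) y
    rw [Finset.sum_eq_single (blockOf M (θ : (Subgroup.centralizer ({x} : Set G)) → ℂ))] at h1
    · rw [hsetb, finsum_mem_pair hne] at h1
      beta_reduce at h1
      rw [h1, hreg y hy, ← add_mul, hd χ]
    · intro b' hb' hne'
      obtain ⟨ξ₀, rfl⟩ := Cfsg.Agent.H80.mem_blocksFinset.mp hb'
      exact Cfsg.Agent.H20.second_main hM x hx' χ₀ χ hχ ξ₀ (fun hi => hne' (huniqb ξ₀ hi)) y hy
    · intro h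
      exact absurd (Cfsg.Agent.H80.mem_blocksFinset.mpr ⟨θ, rfl⟩) h
  have hout : ∀ χ : IrrCharacter G, χ ∉ blockOf M (χ₀ : G → ℂ) → χ ≠ χ₁ ∧ χ ≠ χ₂ := by
    intro χ hχ
    have hnot : ¬ IsInducedBlock M (Subgroup.centralizer ({x} : Set G)) (blockOf M (θ : (Subgroup.centralizer ({x} : Set G)) → ℂ)) (blockOf M (χ : G → ℂ)) := by
      intro hi
      apply hχ
      show SameBlock M (χ₀ : G → ℂ) (χ : G → ℂ)
      intro g
      have h1 := hi.2.2 θ (Cfsg.Agent.H80.mem_blockOf_self hMp θ) χ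
        (Cfsg.Agent.H80.mem_blockOf_self hMp χ) g
      have h2 := hb.2.2 θ hθ χ₀ (Cfsg.Agent.H80.mem_blockOf_self hMp χ₀) g
      have h3 := Cfsg.Agent.H20.memLocalIdeal_sub hMp h1 h2
      convert h3 using 1
      ring
    have h1 := Cfsg.Agent.H20.second_main hM x hx' χ χ (Cfsg.Agent.H80.mem_blockOf_self hMp χ) θ
      hnot 1 (by rw [orderOf_one]; norm_num)
    rw [hsetb, finsum_mem_pair hne] at h1
    beta_reduce at h1
    rw [hθ'1, ← add_mul, hd χ] at h1
    have h2 := (mul_eq_zero.mp h1).resolve_right hθ1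
    constructor
    · intro h
      rw [h, if_pos rfl, if_neg (Ne.symm hχne)] at h2
      norm_num at h2
    · intro h
      rw [h, if_neg hχne, if_pos rfl] at h2
      norm_num at h2
  have hχ₁B : χ₁ ∈ blockOf M (χ₀ : G → ℂ) := by
    by_contra h; exact (hout χ₁ h).1 rfl
  have hχ₂B : χ₂ ∈ blockOf M (χ₀ : G → ℂ) := by
    by_contra h; exact (hout χ₂ h).2 rfl
  have hsub : ∀ χ ∈ blockOf M (χ₀ : G → ℂ), χ = χ₁ ∨ χ = χ₂ := by
    intro χ hχ
    by_contra hcon
    push_neg at hcon
    obtain ⟨hc1, hc2⟩ := hcon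
    have hzero : ∀ y : (Subgroup.centralizer ({x} : Set G)), ¬ 2 ∣ orderOf y → (χ : G → ℂ) (x * (y : G)) = 0 := by
      intro y hy
      rw [hstar χ hχ y hy, if_neg (Ne.symm hc1), if_neg (Ne.symm hc2), sub_zero, zero_mul]
    have hχx : (χ : G → ℂ) x = 0 := by
      have := hzero 1 (by rw [orderOf_one]; norm_num)
      simpa using this
    have hvan : ∀ g : G, orderOf g = 2 → (χ : G → ℂ) g = 0 := by
      intro g hg
      by_cases hconj : ∃ t : G, t * x * t⁻¹ = g
      · obtain ⟨t, rfl⟩ := hconj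
        rw [irr_isClassFunction χ x t]; exact hχx
      · have hpp : IsPPart 2 g g :=
          ⟨1, mul_one g, Commute.one_right g, ⟨1, by rw [hg, pow_one]⟩,
            by rw [orderOf_one]; norm_num⟩
        apply Cfsg.Agent.H20.irr_eq_zero_of_pPart hM χ g g hpp
        intro D' hD' hgD'
        rw [Cfsg.Agent.H80.blockOf_eq_of_mem hMp hχ] at hD'
        obtain ⟨t, ht⟩ := Cfsg.Agent.H80.isDefectGroup_conj_eq 2 hM ⟨χ₀, rfl⟩ hBD hD'
        rw [← ht, Subgroup.mem_map] at hgD'
        obtain ⟨n, hn, hng⟩ := hgD'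
        rcases zpowers_two_elts hx hn with h | h
        · have hg1 : g = 1 := by rw [← hng, h]; simp
          rw [hg1, orderOf_one] at hg; omega
        · apply hconj
          refine ⟨t, ?_⟩
          rw [← hng, h]; rfl
    have hdz := Cfsg.Agent.S0928.result 2 χ hvan
    have hnd : ¬ 2 ∣ Nat.card G / charDegree (χ : G → ℂ) :=
      (Cfsg.Agent.H81.factorization_le_iff_not_dvd_div hp χ).mp hdz.ge
    have hsing := Cfsg.Agent.H81.blockOf_eq_singleton_of_defect_zero hM χ hnd
    have hmem : χ₁ ∈ blockOf M (χ : G → ℂ) := by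
      rw [Cfsg.Agent.H80.blockOf_eq_of_mem hMp hχ]; exact hχ₁B
    rw [hsing] at hmem
    exact hc1 (Set.mem_singleton_iff.mp hmem).symm
  refine ⟨χ₁, χ₂, hχne, ?_, ?_, ?_⟩
  · ext χ
    constructor
    · intro hχ
      rcases hsub χ hχ with h | h
      · rw [h]; exact Set.mem_insert _ _
      · rw [h]; exact Set.mem_insert_of_mem _ rfl
    · rintro (h | h)
      · rw [h]; exact hχ₁B
      · rw [Set.mem_singleton_iff] at h; rw [h]; exact hχ₂B
  · intro g hg
    have h1 := indFun_sec_regular hp (k := 1) one_ne_zero hx' η hηs g hg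
    rw [hχeq, Pi.sub_apply] at h1
    exact sub_eq_zero.mp h1
  · intro y hy
    constructor
    · rw [hstar χ₁ hχ₁B y hy, if_pos rfl, if_neg (Ne.symm hχne)]; simp
    · rw [hstar χ₂ hχ₂B y hy, if_neg hχne, if_pos rfl]; simp

end Main

end Cfsg.Agent.Lib.Defect2
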